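import Cfsg.Agent.H898.Rg.FBlin

/-!
# S3691, the residual case F-B-: numbers (helper898)

* `card_norm` : if `D` is totally singular of dimension `m`, `dim V = 2 m + 1`, and `D^⊥` has no vector of norm `c`, there are
  `q ^ m (q ^ m - 1)` vectors of norm `c`
* `le_card_norm` : at least `q ^ (dim V - 2)` vectors of each norm
* `two_pow_dvd` : `2 ^ (v + 3)` divides `q ^ m - 1` if `m` is even, `q = p ^ f` odd, `2 ^ v ∣ f`
-/

set_option autoImplicit false

namespace Cfsg.Agent.H898.Rg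

open Module QuadraticMap Cfsg.Agent.LieClassical.OrthCore Cfsg.Agent.LieClassical.OrthTrans Cfsg.Agent.H883.Sub

section

variable {F V : Type*} [Field F] [AddCommGroup V] [Module F V] {Q : QuadraticForm F V}

theorem exists_omega [FiniteDimensional F V] {D : Submodule F V} :
    ∃ ω : V → V, (∀ x, x ∉ perp Q D → ω x ∈ D ∧ polar Q x (ω x) = 1) ∧ ∀ x, ∀ y ∈ perp Q D, ω (x + y) = ω x := by
  classical
  have h1 : ∀ ξ : V ⧸ perp Q D, ∃ w : V, ξ ≠ 0 → w ∈ D ∧ ∀ x : V, (Submodule.Quotient.mk x : V ⧸ perp Q D) = ξ → polar Q x w = 1 := by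
    intro ξ
    obtain ⟨x, rfl⟩ := Submodule.Quotient.mk_surjective _ ξ
    by_cases hx : x ∈ perp Q D
    · exact ⟨0, fun h => absurd ((Submodule.Quotient.mk_eq_zero _).2 hx) h⟩
    · obtain ⟨w, hw, hw0⟩ : ∃ w ∈ D, polar Q w x ≠ 0 := by
        by_contra hcon
        push Not at hcon
        exact hx (mem_perp.2 hcon)
      refine ⟨(polar Q w x)⁻¹ • w, fun _ => ⟨D.smul_mem _ hw, fun z hz => ?_⟩⟩
      have h2 : z - x ∈ perp Q D := (Submodule.Quotient.eq _).1 hz
      have h3 : polar Q z w = polar Q x w := by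
        have h4 := mem_perp'.1 h2 w hw
        rw [polar_sub_left] at h4
        exact sub_eq_zero.1 h4
      rw [polar_smul_right, h3, polar_comm Q x w, smul_eq_mul, inv_mul_cancel₀ hw0]
  choose w hw using h1
  refine ⟨fun x => w (Submodule.Quotient.mk x), fun x hx => ?_, fun x y hy => ?_⟩
  · have h2 : (Submodule.Quotient.mk x : V ⧸ perp Q D) ≠ 0 := fun h0 => hx ((Submodule.Quotient.mk_eq_zero _).1 h0)
    exact ⟨(hw _ h2).1, (hw _ h2).2 x rfl⟩
  · have h2 : (Submodule.Quotient.mk (x + y) : V ⧸ perp Q D) = Submodule.Quotient.mk x := by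
      rw [Submodule.Quotient.mk_add, (Submodule.Quotient.mk_eq_zero _).2 hy, add_zero]
    change w _ = w _
    rw [h2]

/-- the number of vectors of norm `c` -/
theorem card_norm [Finite F] [FiniteDimensional F V] (hQ : Nondeg Q) (h2 : (2 : F) ≠ 0) {D : Submodule F V} {m : ℕ}
    (hV : finrank F V = 2 * m + 1) (hD : finrank F D = m) (hts : D ≤ perp Q D) {c : F} (hc : ∀ y ∈ perp Q D, Q y ≠ c) :
    Nat.card {x : V // Q x = c} = Nat.card F ^ m * (Nat.card F ^ m - 1) := by
  classical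
  have := Module.finite_of_finite F (M := V)
  obtain ⟨ω, h1, h3⟩ := exists_omega (Q := Q) (D := D)
  have hsing : ∀ w ∈ D, Q w = 0 := by
    intro w hw
    have h4 := mem_perp.1 (hts hw) w hw
    rw [polar_self'] at h4
    exact (mul_eq_zero.1 h4).resolve_left h2
  have hval : ∀ x, x ∉ perp Q D → ∀ s : F, Q (x + s • ω x) = Q x + s := by
    intro x hx s
    obtain ⟨h5, h6⟩ := h1 x hx
    rw [Q_add, QuadraticMap.map_smul, hsing _ h5, polar_smul_right, h6]
    simp
  have hnot : ∀ x, x ∉ perp Q D → ∀ s : F, x + s • ω x ∉ perp Q D := by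
    intro x hx s hcon
    apply hx
    have h5 : s • ω x ∈ perp Q D := hts (D.smul_mem _ (h1 x hx).1)
    have := (perp Q D).sub_mem hcon h5
    rwa [add_sub_cancel_right] at this
  have hom : ∀ x, x ∉ perp Q D → ∀ s : F, ω (x + s • ω x) = ω x := fun x hx s =>
    h3 x _ (hts (D.smul_mem _ (h1 x hx).1))
  let Φ : {x : V // Q x = c} × F ≃ {x : V // x ∉ perp Q D} :=
    { toFun := fun z => ⟨z.1.1 + z.2 • ω z.1.1, hnot _ (fun h => hc _ h z.1.2) _⟩
      invFun := fun y => (⟨y.1 + (c - Q y.1) • ω y.1, by rw [hval _ y.2]; ring⟩, -(c - Q y.1))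
      left_inv := fun z => by
        have hz : z.1.1 ∉ perp Q D := fun h => hc _ h z.1.2
        have e : c - Q (z.1.1 + z.2 • ω z.1.1) = - z.2 := by rw [hval _ hz, z.1.2]; ring
        refine Prod.ext (Subtype.ext ?_) ?_
        · change z.1.1 + z.2 • ω z.1.1 + (c - Q (z.1.1 + z.2 • ω z.1.1)) • ω (z.1.1 + z.2 • ω z.1.1) = z.1.1
          rw [e, hom _ hz, neg_smul, add_neg_cancel_right]
        · change -(c - Q (z.1.1 + z.2 • ω z.1.1)) = z.2
          rw [e, neg_neg]
      right_inv := fun y => by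
        apply Subtype.ext
        change y.1 + (c - Q y.1) • ω y.1 + (-(c - Q y.1)) • ω (y.1 + (c - Q y.1) • ω y.1) = y.1
        rw [hom _ y.2, neg_smul, add_neg_cancel_right] }
  have hcard := Nat.card_congr Φ
  rw [Nat.card_prod] at hcard
  have hcompl : Nat.card {x : V // x ∉ perp Q D} + Nat.card (perp Q D) = Nat.card V := by
    have h5 := Nat.card_congr (Equiv.sumCompl fun x : V => x ∈ perp Q D)
    rw [Nat.card_sum] at h5
    rw [add_comm]
    exact h5
  have hVc : Nat.card V = Nat.card F ^ (2 * m + 1) := by rw [Module.natCard_eq_pow_finrank (K := F), hV]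
  have hPc : Nat.card (perp Q D) = Nat.card F ^ (m + 1) := by
    have := finrank_perp hQ D
    rw [Module.natCard_eq_pow_finrank (K := F)]
    congr 1
    omega
  rw [hVc, hPc] at hcompl
  have hq : 1 < Nat.card F := Finite.one_lt_card
  set q := Nat.card F with hqd
  set N := Nat.card {x : V // Q x = c} with hN
  apply Nat.eq_of_mul_eq_mul_right (show 0 < q by omega)
  rw [hcard]
  have h5 : 1 ≤ q ^ m := Nat.one_le_pow _ _ (by omega)
  obtain ⟨j, hj⟩ : ∃ j, q ^ m = j + 1 := ⟨q ^ m - 1, by omega⟩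
  have h6 : q ^ (2 * m + 1) = (j + 1) * (j + 1) * q := by rw [← hj]; ring
  have h7 : q ^ (m + 1) = (j + 1) * q := by rw [← hj]; ring
  rw [h6, h7] at hcompl
  rw [hj, Nat.add_sub_cancel]
  have h8 : (j + 1) * (j + 1) * q = (j + 1) * j * q + (j + 1) * q := by ring
  rw [h8] at hcompl
  exact Nat.add_right_cancel hcompl

/-- many vectors of norm `c` -/
theorem le_card_norm [Finite F] [FiniteDimensional F V] (hG : Good Q) (c : F) :
    Nat.card F ^ (finrank F V - 2) ≤ Nat.card {x : V // Q x = c} := by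
  classical
  have := Module.finite_of_finite F (M := V)
  obtain ⟨x, y, hxy⟩ := hG.exists_hyp
  set U := Submodule.span F ({x, y} : Set V) with hU
  have hd : finrank F U ≤ 2 := by
    have h1 := finrank_span_finset_le_card (R := F) ({x, y} : Finset V)
    have h2 : ({x, y} : Finset V).card ≤ 2 := Finset.card_le_two
    have h3 : ((({x, y} : Finset V) : Set V)) = {x, y} := by simp
    rw [h3] at h1
    exact h1.trans h2
  have hdp := finrank_perp hG.nondeg U
  have h1 : Nat.card F ^ (finrank F V - 2) ≤ Nat.card (perp Q U) := by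
    rw [Module.natCard_eq_pow_finrank (K := F) (V := perp Q U)]
    exact Nat.pow_le_pow_right Nat.card_pos (by omega)
  refine h1.trans ?_
  have hx : ∀ r ∈ perp Q U, polar Q x r = 0 := fun r hr => mem_perp.1 hr x (Submodule.subset_span (by simp))
  have hy : ∀ r ∈ perp Q U, polar Q y r = 0 := fun r hr => mem_perp.1 hr y (Submodule.subset_span (by simp))
  refine Nat.card_le_card_of_injective (fun r : perp Q U => (⟨x + (c - Q (r : V)) • y + r, ?_⟩ : {x : V // Q x = c})) ?_
  · rw [Q_add, Q_add, QuadraticMap.map_smul, hxy.left, hxy.right, polar_smul_right, hxy.pair, polar_add_left,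
      polar_smul_left, hx _ r.2, hy _ r.2]
    simp
  · intro r s hrs
    have h2 : x + (c - Q (r : V)) • y + r = x + (c - Q (s : V)) • y + (s : V) := congrArg Subtype.val hrs
    have h3 := congrArg (polar Q x) h2
    rw [polar_add_right, polar_add_right, polar_add_right, polar_add_right, polar_smul_right, polar_smul_right,
      hx _ r.2, hx _ s.2, hxy.pair, hxy.polar_left] at h3
    simp only [zero_add, smul_eq_mul, mul_one, add_zero, sub_right_inj] at h3
    rw [h3] at h2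
    exact Subtype.ext (add_left_cancel h2)

end

/-! ### Arithmetic -/

theorem two_pow_aux {p : ℕ} (hp : Odd p) (v : ℕ) : 2 ^ (v + 3) ∣ p ^ 2 ^ (v + 1) - 1 := by
  have hp1 : 1 ≤ p := hp.pos
  induction v with
  | zero =>
    obtain ⟨j, rfl⟩ := hp
    have h1 : (2 * j + 1) ^ 2 ^ (0 + 1) - 1 = 4 * (j * (j + 1)) := by
      have : (2 * j + 1) ^ 2 ^ (0 + 1) = 4 * (j * (j + 1)) + 1 := by ring
      omega
    rw [h1]
    obtain ⟨k, hk⟩ := (Nat.even_mul_succ_self j).two_dvd
    rw [hk]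
    exact ⟨k, by ring⟩
  | succ v ih =>
    have h1 : p ^ 2 ^ (v + 1 + 1) - 1 = (p ^ 2 ^ (v + 1) - 1) * (p ^ 2 ^ (v + 1) + 1) := by
      have h2 : 1 ≤ p ^ 2 ^ (v + 1) := Nat.one_le_pow _ _ hp1
      obtain ⟨j, hj⟩ : ∃ j, p ^ 2 ^ (v + 1) = j + 1 := ⟨p ^ 2 ^ (v + 1) - 1, by omega⟩
      have h3 : p ^ 2 ^ (v + 1 + 1) = (j + 1) * (j + 1) := by
        rw [← hj, ← pow_add]
        congr 1
        ring
      rw [h3, hj]
      have : (j + 1) * (j + 1) = j * (j + 1 + 1) + 1 := by ring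
      rw [this]
      simp
    rw [h1, show v + 1 + 3 = (v + 3) + 1 by ring, pow_succ 2 (v + 3)]
    refine mul_dvd_mul ih ?_
    have h2 : Odd (p ^ 2 ^ (v + 1)) := hp.pow
    obtain ⟨j, hj⟩ := h2
    rw [hj]
    exact ⟨j + 1, by ring⟩

theorem two_pow_dvd {p f m v : ℕ} (hp : Odd p) (hm : Even m) (hv : 2 ^ v ∣ f) : 2 ^ (v + 3) ∣ (p ^ f) ^ m - 1 := by
  obtain ⟨a, rfl⟩ := hm.two_dvd
  obtain ⟨b, rfl⟩ := hv
  refine (two_pow_aux hp v).trans ?_
  have h1 : (p ^ (2 ^ v * b)) ^ (2 * a) = (p ^ 2 ^ (v + 1)) ^ (b * a) := by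
    rw [← pow_mul, ← pow_mul]
    congr 1
    ring
  rw [h1]
  exact Nat.sub_one_dvd_pow_sub_one _ _

/-- the final numerical contradiction -/
theorem num_kill {p f m k e : ℕ} (hp : Odd p) (hf : 0 < f) (hm : Even m) (hk : Odd k) (he : e ∣ 2 * f)
    (hN : (p ^ f) ^ m * ((p ^ f) ^ m - 1) ∣ 2 * k * e) : False := by
  obtain ⟨v, f', hf', rfl⟩ := Nat.exists_eq_two_pow_mul_odd hf.ne'
  have h1 := two_pow_dvd (m := m) hp hm (Dvd.intro f' rfl : 2 ^ v ∣ 2 ^ v * f')
  have h2 : 2 ^ (v + 3) ∣ 2 * k * (2 * (2 ^ v * f')) :=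
    (h1.trans (Dvd.intro_left _ rfl)).trans (hN.trans (mul_dvd_mul_left _ he))
  have h3 : 2 * k * (2 * (2 ^ v * f')) = 2 ^ (v + 2) * (k * f') := by ring
  rw [h3, show v + 3 = (v + 2) + 1 by ring, pow_succ 2 (v + 2)] at h2
  have h4 : 2 ∣ k * f' := Nat.dvd_of_mul_dvd_mul_left (by positivity) h2
  have h5 : Odd (k * f') := hk.mul hf'
  rw [← Nat.not_even_iff_odd] at h5
  exact h5 (even_iff_two_dvd.2 h4)

end Cfsg.Agent.H898.Rg
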