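import Cfsg.Agent.H449.Reg.Semi
import Cfsg.Agent.H445.AH.OTrans
import Cfsg.Agent.H890.SpParity
import Cfsg.Agent.S0205

/-!
# S3691, the residual case F-B-: the linear part (helper898)

`dim V = 2 m + 1`, `K ≤ E Q` normalised by the group `Γ` of semisimilitudes; no `1 ≠ k ∈ K` fixes a vector of norm `Q v`; no nonzero
`Γ`-invariant subspace is perpendicular to a vector of norm `Q v` (`Cfg`). Then `K` has odd order, and if `K ≠ 1` then `m` is even and
there is a totally singular subspace `D` of dimension `m` such that `D^⊥` contains no vector of norm `Q v`.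
-/

set_option autoImplicit false

namespace Cfsg.Agent.H898.Rg

open Module QuadraticMap Cfsg.Agent.LieClassical.OrthCore Cfsg.Agent.LieClassical.OrthTrans
  Cfsg.Agent.ClassicalGeometry.OrthSemi Cfsg.Agent.H449.Reg Cfsg.Agent.H883.Sub
open Cfsg.Agent.H890.SpParity (fix mem_fix even_E)
open Cfsg.Agent.H445.AH (exists_value_mem)
open scoped commutatorElement

variable {F V : Type*} [Field F] [AddCommGroup V] [Module F V] {Q : QuadraticForm F V}

/-- the linear part of F-B- -/
structure Cfg (Q : QuadraticForm F V) (m : ℕ) (v : V) (K : Subgroup (V ≃ₗ[F] V)) (Γ : Subgroup (Gam Q)) : Prop where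
  good : Good Q
  h2 : (2 : F) ≠ 0
  dim : finrank F V = 2 * m + 1
  hm : 3 ≤ m
  ne : Q v ≠ 0
  le : K ≤ E Q
  conj : ∀ M ∈ Γ, ∀ k ∈ K, conjLin M k ∈ K
  nocom : ∀ S : Submodule F V, S ≠ ⊥ → (∀ M ∈ Γ, img M S = S) → ∀ w : V, Q w = Q v → ∃ s ∈ S, polar Q s w ≠ 0
  free : ∀ k ∈ K, ∀ w : V, Q w = Q v → k w = w → k = 1

/-- `S` is invariant under `Γ` -/
def Inv (Γ : Subgroup (Gam Q)) (S : Submodule F V) : Prop := ∀ M ∈ Γ, ∀ s ∈ S, M.1 s ∈ S

theorem Inv.img_eq [Finite F] [FiniteDimensional F V] {Γ : Subgroup (Gam Q)} {S : Submodule F V} (h : Inv Γ S) :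
    ∀ M ∈ Γ, img M S = S := by
  intro M hM
  refine Submodule.eq_of_le_of_finrank_eq ?_ (finrank_img M S)
  rintro _ ⟨s, hs, rfl⟩
  exact h M hM s hs

theorem Inv.inf {Γ : Subgroup (Gam Q)} {S U : Submodule F V} (hS : Inv Γ S) (hU : Inv Γ U) : Inv Γ (S ⊓ U) :=
  fun M hM s hs => ⟨hS M hM s hs.1, hU M hM s hs.2⟩

theorem Inv.perp {Γ : Subgroup (Gam Q)} {S : Submodule F V} (hS : Inv Γ S) : Inv Γ (perp Q S) := by
  intro M hM x hx
  rw [mem_perp]
  intro s hs
  have h1 := hS M⁻¹ (Γ.inv_mem hM) s hs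
  have h2 : M.1 (M⁻¹.1 s) = s := apply_inv M.1 s
  obtain ⟨σ, c, h⟩ := M.2
  rw [← h2, h.polar, mem_perp.1 hx _ h1, map_zero, mul_zero]

theorem polar_self' (u : V) : polar Q u u = 2 * Q u := by
  rw [QuadraticMap.polar_self, nsmul_eq_mul, Nat.cast_ofNat]

/-- a small subspace is perpendicular to vectors of all norms -/
theorem exists_value_perp [Finite F] [FiniteDimensional F V] (hQ : Nondeg Q) (U : Submodule F V)
    (hU : 2 * finrank F U + 2 ≤ finrank F V) {c : F} (hc : c ≠ 0) : ∃ y ∈ perp Q U, Q y = c := by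
  refine exists_value_mem ?_ c hc
  have h1 : finrank F ↥(perp Q U ⊓ perp Q (perp Q U)) ≤ finrank F U := by
    rw [perp_perp hQ]
    exact Submodule.finrank_mono inf_le_right
  have hd := finrank_perp hQ U
  omega

/-- the fixed space of a semisimple isometry is nondegenerate -/
theorem fix_inf_perp (hQ : Nondeg Q) {k : V ≃ₗ[F] V} (hk : k ∈ O Q) {n : ℕ} (hkn : k ^ n = 1) (hn : (n : F) ≠ 0) :
    fix k ⊓ perp Q (fix k) = ⊥ := by
  rw [Submodule.eq_bot_iff]
  rintro c ⟨hc, hc'⟩
  apply hQ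
  intro x
  have hki : ∀ i : ℕ, (k ^ i) c = c := by
    intro i
    induction i with
    | zero => rfl
    | succ i ih =>
      rw [pow_succ]
      change (k ^ i) (k c) = c
      rw [mem_fix.1 hc, ih]
  have hkO : ∀ i : ℕ, k ^ i ∈ O Q := fun i => (O Q).pow_mem hk i
  have h1 : ∀ i : ℕ, polar Q c ((k ^ i) x) = polar Q c x := by
    intro i
    conv_lhs => rw [← hki i]
    exact polar_map (hkO i) c x
  have h2 : (∑ i ∈ Finset.range n, (k ^ i) x) ∈ fix k := by
    rw [mem_fix, map_sum]
    have h3 : ∀ i, k ((k ^ i) x) = (k ^ (i + 1)) x := fun i => by rw [pow_succ']; rfl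
    simp only [h3]
    have h4 := Finset.sum_range_succ (fun i => (k ^ i) x) n
    have h5 := Finset.sum_range_succ' (fun i => (k ^ i) x) n
    rw [h4] at h5
    have h6 : (k ^ n) x = (k ^ 0) x := by rw [hkn, pow_zero]
    rw [h6] at h5
    exact (add_right_cancel h5).symm
  have h3 : polar Q c (∑ i ∈ Finset.range n, (k ^ i) x) = 0 := by
    exact mem_perp'.1 hc' _ h2
  have h4 : polar Q c (∑ i ∈ Finset.range n, (k ^ i) x) = (n : F) * polar Q c x := by
    have h5 : ∀ s : Finset ℕ, polar Q c (∑ i ∈ s, (k ^ i) x) = (s.card : F) * polar Q c x := by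
      intro s
      induction s using Finset.induction_on with
      | empty => simp
      | insert a s ha ih =>
        rw [Finset.sum_insert ha, polar_add_right, ih, h1, Finset.card_insert_of_notMem ha]
        push_cast
        ring
    rw [h5, Finset.card_range]
  rw [h3] at h4
  exact (mul_eq_zero.1 h4.symm).resolve_left hn

namespace Cfg

variable {m : ℕ} {v : V} {K : Subgroup (V ≃ₗ[F] V)} {Γ : Subgroup (Gam Q)}

theorem leO (h : Cfg Q m v K Γ) {k : V ≃ₗ[F] V} (hk : k ∈ K) : k ∈ O Q := E_le_O (h.le hk)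

theorem odd_fix [FiniteDimensional F V] (h : Cfg Q m v K Γ) {k : V ≃ₗ[F] V} (hk : k ∈ K) : Odd (finrank F (fix k)) := by
  have h1 := even_E h.good.nondeg (h.le hk)
  rw [h.dim] at h1
  rw [Nat.odd_iff]
  rw [Nat.even_iff] at h1
  omega

theorem not_value [Finite F] [FiniteDimensional F V] (h : Cfg Q m v K Γ) {k : V ≃ₗ[F] V} (hk : k ∈ K) (hk1 : k ≠ 1) :
    finrank F (fix k) ≤ finrank F ↥(fix k ⊓ perp Q (fix k)) + 1 := by
  by_contra hcon
  obtain ⟨y, hy, hyv⟩ := exists_value_mem (Q := Q) (Y := fix k) (by omega) (Q v) h.ne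
  exact hk1 (h.free k hk y hyv (mem_fix.1 hy))

/-- semisimple elements of `K` fix only one point -/
theorem exists_u [Finite F] [FiniteDimensional F V] (h : Cfg Q m v K Γ) {k : V ≃ₗ[F] V} (hk : k ∈ K) (hk1 : k ≠ 1) {n : ℕ}
    (hkn : k ^ n = 1) (hn : (n : F) ≠ 0) : ∃ u : V, u ≠ 0 ∧ Q u ≠ 0 ∧ fix k = F ∙ u := by
  have h1 := fix_inf_perp h.good.nondeg (h.leO hk) hkn hn
  have h3 := h.not_value hk hk1
  rw [h1, finrank_bot] at h3
  have h4 := h.odd_fix hk
  have h5 : finrank F (fix k) = 1 := by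
    rw [Nat.odd_iff] at h4
    omega
  obtain ⟨u, hu0, hu⟩ := finrank_eq_one_iff'.1 h5
  have hfu : fix k = F ∙ (u : V) := by
    apply le_antisymm
    · intro x hx
      obtain ⟨c, hc⟩ := hu ⟨x, hx⟩
      exact Submodule.mem_span_singleton.2 ⟨c, congrArg Subtype.val hc⟩
    · rw [Submodule.span_singleton_le_iff_mem]
      exact u.2
  have hu0' : (u : V) ≠ 0 := fun h0 => hu0 (Subtype.ext h0)
  refine ⟨u, hu0', ?_, hfu⟩
  intro hQu
  apply hu0'
  have h6 : (u : V) ∈ fix k ⊓ perp Q (fix k) := by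
    refine ⟨u.2, mem_perp.2 fun w hw => ?_⟩
    rw [hfu] at hw
    obtain ⟨c, rfl⟩ := Submodule.mem_span_singleton.1 hw
    rw [polar_smul_left, QuadraticMap.polar_self, hQu]
    simp
  rw [h1] at h6
  exact h6

theorem neg_of_perp [Finite F] [FiniteDimensional F V] (h : Cfg Q m v K Γ) {t : V ≃ₗ[F] V} (ht : t ∈ K) (htt : t * t = 1)
    {u : V} (hQu : Q u ≠ 0) (hu : fix t = F ∙ u) {y : V} (hy : polar Q y u = 0) : t y = -y := by
  have htu : t u = u := mem_fix.1 (by rw [hu]; exact Submodule.mem_span_singleton_self u)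
  have h1 : y + t y ∈ fix t := by
    rw [mem_fix, map_add]
    have : t (t y) = y := by
      change (t * t) y = y
      rw [htt]
      rfl
    rw [this, add_comm]
  rw [hu] at h1
  obtain ⟨c, hc⟩ := Submodule.mem_span_singleton.1 h1
  have h2 : polar Q (y + t y) u = 0 := by
    have h3 : polar Q (t y) u = 0 := by
      conv_lhs => rw [← htu]
      rw [polar_map (h.leO ht), hy]
    rw [polar_add_left, hy, h3, add_zero]
  rw [← hc, polar_smul_left, polar_self', smul_eq_mul] at h2
  have h3 : c = 0 := by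
    rcases mul_eq_zero.1 h2 with h4 | h4
    · exact h4
    · rcases mul_eq_zero.1 h4 with h5 | h5
      · exact absurd h5 h.h2
      · exact absurd h5 hQu
  rw [h3, zero_smul] at hc
  rw [eq_neg_iff_add_eq_zero, add_comm, ← hc]

/-- the involution of `K` is unique -/
theorem inv_unique [Finite F] [FiniteDimensional F V] (h : Cfg Q m v K Γ) {s t : V ≃ₗ[F] V} (hs : s ∈ K) (ht : t ∈ K)
    (hss : s * s = 1) (htt : t * t = 1) (hs1 : s ≠ 1) (ht1 : t ≠ 1) : s = t := by
  have h2' : ((2 : ℕ) : F) ≠ 0 := by exact_mod_cast h.h2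
  obtain ⟨u, -, hQu, hu⟩ := h.exists_u hs hs1 (n := 2) (by rw [pow_two, hss]) h2'
  obtain ⟨w, -, hQw, hw⟩ := h.exists_u ht ht1 (n := 2) (by rw [pow_two, htt]) h2'
  have hd : finrank F (Submodule.span F ({u, w} : Set V)) ≤ 2 := by
    classical
    have h1 := finrank_span_finset_le_card (R := F) ({u, w} : Finset V)
    have h2 : ({u, w} : Finset V).card ≤ 2 := Finset.card_le_two
    have h3 : ((({u, w} : Finset V) : Set V)) = {u, w} := by simp
    rw [h3] at h1
    exact h1.trans h2
  obtain ⟨y, hy, hyv⟩ := exists_value_perp h.good.nondeg (Submodule.span F ({u, w} : Set V)) (by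
    have := h.dim
    have := h.hm
    omega) h.ne
  have hyu : polar Q y u = 0 := mem_perp'.1 hy u (Submodule.subset_span (by simp))
  have hyw : polar Q y w = 0 := mem_perp'.1 hy w (Submodule.subset_span (by simp))
  have h1 : (s * t) y = y := by
    change s (t y) = y
    rw [h.neg_of_perp ht htt hQw hw hyw, map_neg, h.neg_of_perp hs hss hQu hu hyu, neg_neg]
  have h2 := h.free (s * t) (K.mul_mem hs ht) y hyv h1
  rw [← hss] at h2
  exact (mul_left_cancel h2).symm

/-- `K` has no involution -/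
theorem no_inv [Finite F] [FiniteDimensional F V] (h : Cfg Q m v K Γ) {t : V ≃ₗ[F] V} (ht : t ∈ K) (htt : t * t = 1) :
    t = 1 := by
  by_contra ht1
  have h2' : ((2 : ℕ) : F) ≠ 0 := by exact_mod_cast h.h2
  obtain ⟨u, hu0, hQu, hu⟩ := h.exists_u ht ht1 (n := 2) (by rw [pow_two, htt]) h2'
  have hinv : Inv Γ (fix t) := by
    intro M hM x hx
    have h1 : conjLin M t = t := by
      refine h.inv_unique (h.conj M hM t ht) ht ?_ htt ?_ ht1
      · rw [← conjLin_mul, htt, conjLin_one]
      · intro h3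
        apply ht1
        have h4 := congrArg (conjLin M⁻¹) h3
        rwa [← conjLin_mul_left, inv_mul_cancel, conjLin_one_left, conjLin_one] at h4
    rw [mem_fix] at hx ⊢
    have h3 := conjLin_apply' M t x
    rw [h1, hx] at h3
    exact h3
  have hd : finrank F (fix t) ≤ 1 := by
    rw [hu]
    exact (finrank_span_singleton hu0).le
  obtain ⟨y, hy, hyv⟩ := exists_value_perp h.good.nondeg (fix t) (by
    have := h.dim
    have := h.hm
    omega) h.ne
  obtain ⟨s, hs, hs0⟩ := h.nocom (fix t) (by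
    rw [hu]
    intro h0
    exact hu0 (Submodule.span_singleton_eq_bot.1 h0)) hinv.img_eq y hyv
  exact hs0 (mem_perp.1 hy s hs)

theorem finiteV [Finite F] [FiniteDimensional F V] : Finite V := Module.finite_of_finite F

theorem odd_card [Finite F] [FiniteDimensional F V] (h : Cfg Q m v K Γ) : Odd (Nat.card K) := by
  have := finiteV (F := F) (V := V)
  have : Finite (V ≃ₗ[F] V) := Finite.of_injective (fun g => (g : V → V)) DFunLike.coe_injective
  rw [← Nat.not_even_iff_odd]
  intro he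
  have : Fact (Nat.Prime 2) := ⟨Nat.prime_two⟩
  obtain ⟨t, ht⟩ := exists_prime_orderOf_dvd_card' (G := K) 2 he.two_dvd
  have h1 : (t : V ≃ₗ[F] V) = 1 := by
    refine h.no_inv t.2 ?_
    have h2 := pow_orderOf_eq_one t
    rw [ht, pow_two] at h2
    exact congrArg Subtype.val h2
  have h2 : t = 1 := Subtype.ext h1
  rw [h2, orderOf_one] at ht
  omega

/-! ### The abelian subgroup -/

/-- conjugation by an element of `Γ` on `K` -/
def phi (h : Cfg Q m v K Γ) (M : Gam Q) (hM : M ∈ Γ) : K →* K where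
  toFun k := ⟨conjLin M k, h.conj M hM k k.2⟩
  map_one' := Subtype.ext (conjLin_one M)
  map_mul' a b := Subtype.ext (conjLin_mul M a b)

/-- a nontrivial elementary abelian `Γ`-invariant subgroup -/
theorem exists_R [Finite F] [FiniteDimensional F V] (h : Cfg Q m v K Γ) (hK : K ≠ ⊥) :
    ∃ (R : Subgroup (V ≃ₗ[F] V)) (l : ℕ), l.Prime ∧ l ≠ 2 ∧ R ≤ K ∧ R ≠ ⊥ ∧ (∀ a ∈ R, a ^ l = 1) ∧
      (∀ a ∈ R, ∀ b ∈ R, a * b = b * a) ∧ ∀ M ∈ Γ, ∀ a ∈ R, conjLin M a ∈ R := by
  classical
  have := finiteV (F := F) (V := V)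
  have : Finite (V ≃ₗ[F] V) := Finite.of_injective (fun g => (g : V → V)) DFunLike.coe_injective
  have hodd := h.odd_card
  have hsol : Group.IsSolvable K := Cfsg.Agent.S0205.result hodd
  have hex : ∃ n, derivedSeries K n = ⊥ := hsol.solvable
  have hn0 : Nat.find hex ≠ 0 := by
    intro h0
    have h1 := Nat.find_spec hex
    rw [h0, derivedSeries_zero] at h1
    apply hK
    rw [Subgroup.eq_bot_iff_forall]
    intro k hk
    have h2 : (⟨k, hk⟩ : K) ∈ (⊥ : Subgroup K) := by rw [← h1]; trivial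
    exact congrArg Subtype.val (Subgroup.mem_bot.1 h2)
  obtain ⟨n, hn⟩ := Nat.exists_eq_succ_of_ne_zero hn0
  have hbot : derivedSeries K (n + 1) = ⊥ := by
    have h1 := Nat.find_spec hex
    rwa [hn] at h1
  have hne : derivedSeries K n ≠ ⊥ := fun h0 => by
    have := Nat.find_min' hex h0
    omega
  set D := derivedSeries K n with hD
  have hcomm : ∀ a ∈ D, ∀ b ∈ D, a * b = b * a := by
    intro a ha b hb
    have h1 : ⁅a, b⁆ ∈ derivedSeries K (n + 1) := by
      rw [derivedSeries_succ]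
      exact Subgroup.commutator_mem_commutator ha hb
    rw [hbot, Subgroup.mem_bot] at h1
    exact commutatorElement_eq_one_iff_mul_comm.1 h1
  have hcard : Nat.card D ≠ 1 := fun h0 => hne (Subgroup.card_eq_one.1 h0)
  obtain ⟨l, hl, hld⟩ := Nat.exists_prime_and_dvd hcard
  have : Fact l.Prime := ⟨hl⟩
  obtain ⟨z, hz⟩ := exists_prime_orderOf_dvd_card' (G := D) l hld
  have hl2 : l ≠ 2 := by
    rintro rfl
    have h1 : 2 ∣ Nat.card K := hld.trans (Subgroup.card_subgroup_dvd_card D)
    rw [← Nat.not_even_iff_odd] at hodd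
    exact hodd (even_iff_two_dvd.2 h1)
  let R : Subgroup (V ≃ₗ[F] V) :=
    { carrier := {a | ∃ d ∈ D, (d : V ≃ₗ[F] V) = a ∧ a ^ l = 1}
      one_mem' := ⟨1, D.one_mem, rfl, one_pow l⟩
      mul_mem' := by
        rintro _ _ ⟨d, hd, rfl, h1⟩ ⟨e, he, rfl, h2⟩
        refine ⟨d * e, D.mul_mem hd he, rfl, ?_⟩
        have h3 : Commute (d : V ≃ₗ[F] V) (e : V ≃ₗ[F] V) := congrArg Subtype.val (hcomm d hd e he)
        rw [h3.mul_pow, h1, h2, one_mul]
      inv_mem' := by
        rintro _ ⟨d, hd, rfl, h1⟩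
        exact ⟨d⁻¹, D.inv_mem hd, rfl, by rw [inv_pow, h1, inv_one]⟩ }
  refine ⟨R, l, hl, hl2, ?_, ?_, ?_, ?_, ?_⟩
  · rintro _ ⟨d, -, rfl, -⟩
    exact d.2
  · intro h0
    have h1 : (((z : D) : K) : V ≃ₗ[F] V) ∈ R := by
      refine ⟨z, z.2, rfl, ?_⟩
      have h2 := pow_orderOf_eq_one z
      rw [hz] at h2
      exact congrArg (fun x : D => ((x : K) : V ≃ₗ[F] V)) h2
    rw [h0, Subgroup.mem_bot] at h1
    have h2 : z = 1 := Subtype.ext (Subtype.ext h1)
    rw [h2, orderOf_one] at hz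
    exact hl.one_lt.ne hz
  · rintro _ ⟨d, -, rfl, h1⟩
    exact h1
  · rintro _ ⟨d, hd, rfl, -⟩ _ ⟨e, he, rfl, -⟩
    exact congrArg Subtype.val (hcomm d hd e he)
  · rintro M hM _ ⟨d, hd, rfl, h1⟩
    refine ⟨h.phi M hM d, ?_, rfl, ?_⟩
    · exact map_derivedSeries_le_derivedSeries (h.phi M hM) n (Subgroup.mem_map_of_mem _ hd)
    · have h2 : ∀ i : ℕ, (conjLin M (d : V ≃ₗ[F] V)) ^ i = conjLin M ((d : V ≃ₗ[F] V) ^ i) := by
        intro i
        induction i with
        | zero => rw [pow_zero, pow_zero, conjLin_one]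
        | succ i ih => rw [pow_succ, pow_succ, ih, conjLin_mul]
      rw [h2, h1, conjLin_one]

/-- the fixed space of a subgroup -/
def fixS (R : Subgroup (V ≃ₗ[F] V)) : Submodule F V where
  carrier := {x | ∀ a ∈ R, a x = x}
  add_mem' := fun {x y} hx hy a ha => by rw [map_add, hx a ha, hy a ha]
  zero_mem' := fun a _ => map_zero a
  smul_mem' := fun c x hx a ha => by rw [map_smul, hx a ha]

theorem inv_fixS {R : Subgroup (V ≃ₗ[F] V)} (hR : ∀ M ∈ Γ, ∀ a ∈ R, conjLin M a ∈ R) : Inv Γ (fixS R) := by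
  intro M hM x hx a ha
  have h1 := hR M⁻¹ (Γ.inv_mem hM) a ha
  have h2 : conjLin M (conjLin M⁻¹ a) = a := by rw [← conjLin_mul_left, mul_inv_cancel, conjLin_one_left]
  have h3 := conjLin_apply' M (conjLin M⁻¹ a) x
  rw [h2, hx _ h1] at h3
  exact h3

/-- `c ^ 2 = 1` and `c ^ l = 1`, `l` odd -/
theorem one_of_sq {c : F} (h1 : c * c = 1) {l : ℕ} (hl : Odd l) (h2 : c ^ l = 1) : c = 1 := by
  obtain ⟨j, rfl⟩ := hl
  rw [pow_add, pow_mul, pow_two, h1, one_pow, one_mul, pow_one] at h2
  exact h2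

/-- `R` is not a group of order prime to the characteristic -/
theorem kill_prime [Finite F] [FiniteDimensional F V] (h : Cfg Q m v K Γ) {R : Subgroup (V ≃ₗ[F] V)} {l : ℕ} (hl : l.Prime)
    (hl2 : l ≠ 2) (hRK : R ≤ K) (hR1 : R ≠ ⊥) (hRl : ∀ a ∈ R, a ^ l = 1) (hRc : ∀ a ∈ R, ∀ b ∈ R, a * b = b * a)
    (hRM : ∀ M ∈ Γ, ∀ a ∈ R, conjLin M a ∈ R) : (l : F) = 0 := by
  by_contra hlF
  obtain ⟨z, hz, hz1⟩ : ∃ z ∈ R, z ≠ 1 := by
    by_contra hcon
    push Not at hcon
    exact hR1 ((Subgroup.eq_bot_iff_forall _).2 hcon)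
  obtain ⟨u, hu0, hQu, hu⟩ := h.exists_u (hRK hz) hz1 (hRl z hz) hlF
  have hzu : z u = u := mem_fix.1 (by rw [hu]; exact Submodule.mem_span_singleton_self u)
  have hau : ∀ a ∈ R, a u = u := by
    intro a ha
    have h1 : a u ∈ fix z := by
      rw [mem_fix]
      have h2 : z (a u) = a (z u) := by
        change (z * a) u = (a * z) u
        rw [hRc a ha z hz]
      rw [h2, hzu]
    rw [hu] at h1
    obtain ⟨c, hc⟩ := Submodule.mem_span_singleton.1 h1
    have h2 : Q (a u) = Q u := h.leO (hRK ha) u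
    rw [← hc, QuadraticMap.map_smul, smul_eq_mul] at h2
    have h3 : c * c = 1 := mul_right_cancel₀ hQu (by rw [h2, one_mul])
    have h4 : ∀ i : ℕ, (a ^ i) u = c ^ i • u := by
      intro i
      induction i with
      | zero => rw [pow_zero, pow_zero, one_smul]; rfl
      | succ i ih =>
        rw [pow_succ']
        change a ((a ^ i) u) = _
        rw [ih, map_smul, ← hc, smul_smul, pow_succ]
    have h5 := h4 l
    rw [hRl a ha] at h5
    have h6 : c ^ l = 1 := by
      have h7 : (c ^ l - 1) • u = 0 := by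
        rw [sub_smul, one_smul, ← h5]
        change u - u = 0
        exact sub_self u
      rcases smul_eq_zero.1 h7 with h8 | h8
      · exact sub_eq_zero.1 h8
      · exact absurd h8 hu0
    rw [← hc, one_of_sq h3 (hl.odd_of_ne_two hl2) h6, one_smul]
  have hS : fixS R = F ∙ u := by
    apply le_antisymm
    · intro x hx
      rw [← hu, mem_fix]
      exact hx z hz
    · rw [Submodule.span_singleton_le_iff_mem]
      exact hau
  have hd : finrank F (fixS R) ≤ 1 := by
    rw [hS]
    exact (finrank_span_singleton hu0).le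
  obtain ⟨y, hy, hyv⟩ := exists_value_perp h.good.nondeg (fixS R) (by
    have := h.dim
    have := h.hm
    omega) h.ne
  obtain ⟨s, hs, hs0⟩ := h.nocom (fixS R) (by
    rw [hS]
    intro h0
    exact hu0 (Submodule.span_singleton_eq_bot.1 h0)) (inv_fixS hRM).img_eq y hyv
  exact hs0 (mem_perp.1 hy s hs)

/-! ### The `p`-case -/

/-- invariant totally singular subspaces have dimension `m` -/
theorem finrank_ts [Finite F] [FiniteDimensional F V] (h : Cfg Q m v K Γ) {S : Submodule F V} (hS : Inv Γ S) (h0 : S ≠ ⊥)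
    (hts : S ≤ perp Q S) : finrank F S = m := by
  have hd := h.dim
  have hdp := finrank_perp h.good.nondeg S
  have h1 := Submodule.finrank_mono hts
  by_contra hne
  obtain ⟨y, hy, hyv⟩ := exists_value_perp h.good.nondeg S (by omega) h.ne
  obtain ⟨s, hs, hs0⟩ := h.nocom S h0 hS.img_eq y hyv
  exact hs0 (mem_perp.1 hy s hs)

theorem sing_of_ts (h : Cfg Q m v K Γ) {S : Submodule F V} (hts : S ≤ perp Q S) {x : V} (hx : x ∈ S) : Q x = 0 := by
  have h1 := mem_perp.1 (hts hx) x hx
  rw [polar_self'] at h1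
  exact (mul_eq_zero.1 h1).resolve_left h.h2

/-- the radical of the fixed space of a `p`-group -/
theorem exists_D [Finite F] [FiniteDimensional F V] (h : Cfg Q m v K Γ) {C : Submodule F V} (hC : Inv Γ C) (h0 : C ≠ ⊥)
    (h1 : C ≠ ⊤) : ∃ D : Submodule F V, Inv Γ D ∧ D ≤ C ∧ D ≤ perp Q D ∧ finrank F D = m ∧ C ≤ perp Q D := by
  have hQ := h.good.nondeg
  have hd := h.dim
  have hm := h.hm
  have hne : C ⊓ perp Q C ≠ ⊥ := by
    intro hbot
    have hdp := finrank_perp hQ C
    rcases le_or_gt 2 (finrank F C) with h2 | h2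
    · obtain ⟨y, hy, hyv⟩ := exists_value_mem (Q := Q) (Y := C) (by rw [hbot, finrank_bot]; exact h2) (Q v) h.ne
      have hP : perp Q C ≠ ⊥ := by
        intro h3
        apply h1
        rw [← perp_perp hQ C, h3]
        ext x
        refine ⟨fun _ => trivial, fun _ => mem_perp.2 fun w hw => ?_⟩
        rw [Submodule.mem_bot] at hw
        rw [hw, polar_zero_left]
      obtain ⟨s, hs, hs0⟩ := h.nocom _ hP hC.perp.img_eq y hyv
      exact hs0 (mem_perp'.1 hs y hy)
    · obtain ⟨y, hy, hyv⟩ := exists_value_mem (Q := Q) (Y := perp Q C) (by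
        rw [perp_perp hQ, inf_comm, hbot, finrank_bot]
        omega) (Q v) h.ne
      obtain ⟨s, hs, hs0⟩ := h.nocom _ h0 hC.img_eq y hyv
      exact hs0 (mem_perp.1 hy s hs)
  have hts : C ⊓ perp Q C ≤ perp Q (C ⊓ perp Q C) := by
    intro x hx
    exact mem_perp.2 fun w hw => mem_perp.1 hx.2 w hw.1
  refine ⟨C ⊓ perp Q C, hC.inf hC.perp, inf_le_left, hts, h.finrank_ts (hC.inf hC.perp) hne hts, ?_⟩
  intro x hx
  exact mem_perp.2 fun w hw => mem_perp'.1 hw.2 x hx

/-- a nontrivial `p`-group has a fixed vector -/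
theorem fixS_ne_bot [Finite F] [FiniteDimensional F V] (h : Cfg Q m v K Γ) {R : Subgroup (V ≃ₗ[F] V)} {l : ℕ} (hl : l.Prime)
    (hRl : ∀ a ∈ R, a ^ l = 1) (hlF : (l : F) = 0) : fixS R ≠ ⊥ := by
  classical
  have := finiteV (F := F) (V := V)
  have := Fact.mk hl
  have hpg : IsPGroup l R := fun a => ⟨1, by rw [pow_one]; exact Subtype.ext (hRl a a.2)⟩
  have hdvd : l ∣ Nat.card V := by
    have h1 : Nat.card V = Nat.card F ^ finrank F V := Module.natCard_eq_pow_finrank
    have h2 : l ∣ Nat.card F := by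
      have : CharP F l := by
        have hF := ringChar.spec F l
        have h3 : ringChar F = l := by
          rcases (Nat.dvd_prime hl).1 (hF.1 hlF) with h4 | h4
          · exact absurd h4 (CharP.ringChar_ne_one)
          · exact h4
        rw [← h3]
        exact ringChar.charP F
      have := Fintype.ofFinite F
      obtain ⟨n, -, hn⟩ := FiniteField.card F l
      rw [Nat.card_eq_fintype_card, hn]
      exact dvd_pow_self l n.ne_zero
    rw [h1]
    exact h2.trans (dvd_pow_self _ (by have := h.dim; omega))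
  have h1 := hpg.card_modEq_card_fixedPoints V
  have h2 : l ∣ Nat.card (MulAction.fixedPoints R V) := (Nat.modEq_zero_iff_dvd.1 (h1.symm.trans (Nat.modEq_zero_iff_dvd.2 hdvd)))
  intro hbot
  have h3 : MulAction.fixedPoints R V = {0} := by
    ext x
    constructor
    · intro hx
      have h4 : x ∈ fixS R := fun a ha => hx ⟨a, ha⟩
      rw [hbot] at h4
      exact h4
    · rintro rfl
      intro a
      exact smul_zero a
  rw [h3] at h2
  have h4 : Nat.card ({0} : Set V) = 1 := by simp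
  rw [h4] at h2
  exact hl.one_lt.ne' (Nat.dvd_one.1 h2)

/-- the commuting elements of `R` act trivially on `D^⊥` -/
theorem trivial_H [Finite F] [FiniteDimensional F V] (h : Cfg Q m v K Γ) {R : Subgroup (V ≃ₗ[F] V)} {l : ℕ}
    (hl : Odd l) (hRK : R ≤ K) (hRl : ∀ a ∈ R, a ^ l = 1) (hRc : ∀ a ∈ R, ∀ b ∈ R, a * b = b * a)
    (hRM : ∀ M ∈ Γ, ∀ a ∈ R, conjLin M a ∈ R) {D : Submodule F V} (hD : Inv Γ D) (hDf : D ≤ fixS R) (hts : D ≤ perp Q D)
    (hDm : finrank F D = m) : perp Q D ≤ fixS R := by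
  classical
  have hQ := h.good.nondeg
  have hd := h.dim
  have hm := h.hm
  have hdp := finrank_perp hQ D
  -- a vector outside `D`
  obtain ⟨u, huH, huD⟩ : ∃ u ∈ perp Q D, u ∉ D := by
    by_contra hcon
    push Not at hcon
    have := Submodule.finrank_mono (show perp Q D ≤ D from hcon)
    omega
  have hu0 : u ≠ 0 := fun h0 => huD (by rw [h0]; exact D.zero_mem)
  have hHdec : ∀ x ∈ perp Q D, ∃ c : F, ∃ w ∈ D, x = c • u + w := by
    have hle : D ⊔ F ∙ u ≤ perp Q D := sup_le hts ((Submodule.span_singleton_le_iff_mem _ _).2 huH)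
    have hlt : D < D ⊔ F ∙ u := lt_of_le_of_ne le_sup_left fun h0 => huD (by
      rw [h0]
      exact le_sup_right (a := D) (Submodule.mem_span_singleton_self u))
    have h1 := Submodule.finrank_lt_finrank_of_lt hlt
    have h2 : D ⊔ F ∙ u = perp Q D := Submodule.eq_of_le_of_finrank_le hle (by omega)
    intro x hx
    rw [← h2] at hx
    obtain ⟨w, hw, z, hz, rfl⟩ := Submodule.mem_sup.1 hx
    obtain ⟨c, rfl⟩ := Submodule.mem_span_singleton.1 hz
    exact ⟨c, w, hw, add_comm _ _⟩
  have hQu : Q u ≠ 0 := by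
    intro hQu
    apply huD
    rw [← perp_perp hQ D]
    refine mem_perp.2 fun x hx => ?_
    obtain ⟨c, w, hw, rfl⟩ := hHdec x hx
    rw [polar_add_left, polar_smul_left, polar_self', hQu, mem_perp.1 huH w hw]
    simp
  -- `R` preserves `D^⊥`
  have haH : ∀ a ∈ R, ∀ x ∈ perp Q D, a x ∈ perp Q D := by
    intro a ha x hx
    refine mem_perp.2 fun w hw => ?_
    rw [← hDf hw a ha, polar_map (h.leO (hRK ha))]
    exact mem_perp.1 hx w hw
  -- `a u = u + δ`
  have hau : ∀ a ∈ R, a u - u ∈ D := by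
    intro a ha
    obtain ⟨c, w, hw, hc⟩ := hHdec (a u) (haH a ha u huH)
    have h1 : Q (a u) = Q u := h.leO (hRK ha) u
    have h2 : polar Q (c • u) w = 0 := by
      rw [polar_smul_left, polar_comm, mem_perp.1 huH w hw, smul_zero]
    rw [hc, Q_add, QuadraticMap.map_smul, h.sing_of_ts hts hw, h2, smul_eq_mul, add_zero, add_zero] at h1
    have h3 : c * c = 1 := mul_right_cancel₀ hQu (by rw [h1, one_mul])
    have h4 : ∀ i : ℕ, ∃ w ∈ D, (a ^ i) u = c ^ i • u + w := by
      intro i
      induction i with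
      | zero => exact ⟨0, D.zero_mem, by rw [pow_zero, pow_zero, one_smul, add_zero]; rfl⟩
      | succ i ih =>
        obtain ⟨w', hw', e⟩ := ih
        refine ⟨c ^ i • w + w', D.add_mem (D.smul_mem _ hw) hw', ?_⟩
        rw [pow_succ']
        change a ((a ^ i) u) = _
        rw [e, map_add, map_smul, hc, hDf hw' a ha, smul_add, smul_smul, pow_succ]
        abel
    obtain ⟨w', hw', h5⟩ := h4 l
    rw [hRl a ha] at h5
    have h6 : c ^ l = 1 := by
      by_contra hne
      apply huD
      have h7 : (1 - c ^ l) • u = w' := by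
        rw [sub_smul, one_smul, sub_eq_iff_eq_add, add_comm]
        exact h5
      have h8 : (1 - c ^ l) ≠ 0 := fun h0 => hne (sub_eq_zero.1 h0).symm
      have h9 : u = (1 - c ^ l)⁻¹ • w' := by rw [← h7, smul_smul, inv_mul_cancel₀ h8, one_smul]
      rw [h9]
      exact D.smul_mem _ hw'
    rw [hc, one_of_sq h3 hl h6, one_smul, add_sub_cancel_left]
    exact hw
  -- the span of the `a x - x`
  set S := Submodule.span F {z : V | ∃ a ∈ R, ∃ x ∈ perp Q D, z = a x - x} with hS
  have hSD : S ≤ D := by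
    rw [hS, Submodule.span_le]
    rintro _ ⟨a, ha, x, hx, rfl⟩
    obtain ⟨c, w, hw, rfl⟩ := hHdec x hx
    have : a (c • u + w) - (c • u + w) = c • (a u - u) := by
      rw [map_add, map_smul, hDf hw a ha, smul_sub]
      abel
    rw [this]
    exact D.smul_mem _ (hau a ha)
  by_cases hS0 : S = ⊥
  · intro x hx a ha
    have h1 : a x - x ∈ S := Submodule.subset_span ⟨a, ha, x, hx, rfl⟩
    rw [hS0, Submodule.mem_bot] at h1
    exact sub_eq_zero.1 h1
  · exfalso
    have hSinv : Inv Γ S := by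
      intro M hM x hx
      obtain ⟨σ, c, hMs⟩ := M.2
      rw [hS] at hx
      induction hx using Submodule.span_induction with
      | mem z hz =>
        obtain ⟨a, ha, x, hx, rfl⟩ := hz
        refine Submodule.subset_span ⟨conjLin M a, hRM M hM a ha, M.1 x, hD.perp M hM x hx, ?_⟩
        rw [conjLin_apply', hMs.sub]
      | zero => rw [hMs.map_zero]; exact S.zero_mem
      | add y z _ _ hy hz => rw [hMs.add]; exact S.add_mem hy hz
      | smul b y _ hy => rw [hMs.smul]; exact S.smul_mem _ hy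
    have hSts : S ≤ perp Q S := fun x hx => mem_perp.2 fun w hw => mem_perp.1 (hts (hSD hx)) w (hSD hw)
    have hSm := h.finrank_ts hSinv hS0 hSts
    -- all of `S` is a line
    obtain ⟨a, ha, hane⟩ : ∃ a ∈ R, a u - u ≠ 0 := by
      by_contra hcon
      push Not at hcon
      apply hS0
      rw [hS, Submodule.span_eq_bot]
      rintro _ ⟨a, ha, x, hx, rfl⟩
      obtain ⟨c, w, hw, rfl⟩ := hHdec x hx
      have : a (c • u + w) - (c • u + w) = c • (a u - u) := by
        rw [map_add, map_smul, hDf hw a ha, smul_sub]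
        abel
      rw [this, hcon a ha, smul_zero]
    -- `(a - 1) x` lies in `D^⊥`
    have hax : ∀ a ∈ R, ∀ x, a x - x ∈ perp Q D := by
      intro a ha x
      refine mem_perp.2 fun w hw => ?_
      rw [polar_sub_right]
      conv_lhs => rw [← hDf hw a ha, polar_map (h.leO (hRK ha))]
      rw [hDf hw a ha, sub_self]
    have hpa : ∀ a ∈ R, ∀ x, polar Q (a x - x) u = - polar Q x (a u - u) := by
      intro a ha x
      have h1 := polar_map (h.leO (hRK ha)) x u
      have h2 := polar_map (h.leO (hRK ha)) x (a u - u)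
      rw [hDf (hau a ha) a ha, polar_sub_right, polar_sub_right] at h2
      rw [polar_sub_left, polar_sub_right]
      rw [h1] at h2
      linear_combination -h2
    have hline : ∀ b ∈ R, b u - u ∈ F ∙ (a u - u) := by
      intro b hb
      obtain ⟨x, hx⟩ : ∃ x, polar Q x (a u - u) ≠ 0 := by
        by_contra hcon
        push Not at hcon
        exact hane (hQ _ fun x => by rw [polar_comm]; exact hcon x)
      obtain ⟨α, w, hw, hα⟩ := hHdec (a x - x) (hax a ha x)
      obtain ⟨β, w', hw', hβ⟩ := hHdec (b x - x) (hax b hb x)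
      have hα0 : α ≠ 0 := by
        rintro rfl
        apply hx
        have h1 := hpa a ha x
        rw [hα, zero_smul, zero_add, polar_comm, mem_perp'.1 huH w hw] at h1
        exact neg_eq_zero.1 h1.symm
      have hba : b (a x - x) - (a x - x) = a (b x - x) - (b x - x) := by
        have h1 : b (a x) = a (b x) := by
          change (b * a) x = (a * b) x
          rw [hRc a ha b hb]
        rw [map_sub, map_sub, h1]
        abel
      rw [hα, hβ, map_add, map_add, map_smul, map_smul, hDf hw b hb, hDf hw' a ha] at hba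
      have h1 : α • (b u - u) = β • (a u - u) := by
        rw [smul_sub, smul_sub]
        have h2 : α • b u - α • u = α • b u + w - (α • u + w) := by abel
        have h3 : β • a u - β • u = β • a u + w' - (β • u + w') := by abel
        rw [h2, h3, hba]
      refine Submodule.mem_span_singleton.2 ⟨α⁻¹ * β, ?_⟩
      rw [mul_smul, ← h1, smul_smul, inv_mul_cancel₀ hα0, one_smul]
    have hSl : S ≤ F ∙ (a u - u) := by
      rw [hS, Submodule.span_le]
      rintro _ ⟨b, hb, x, hx, rfl⟩
      obtain ⟨c, w, hw, rfl⟩ := hHdec x hx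
      have : b (c • u + w) - (c • u + w) = c • (b u - u) := by
        rw [map_add, map_smul, hDf hw b hb, smul_sub]
        abel
      rw [this]
      exact Submodule.smul_mem _ _ (hline b hb)
    have h1 := Submodule.finrank_mono hSl
    rw [finrank_span_singleton hane, hSm] at h1
    omega

/-- **the linear part of F-B-** -/
theorem main [Finite F] [FiniteDimensional F V] (h : Cfg Q m v K Γ) (hK : K ≠ ⊥) :
    Even m ∧ ∃ D : Submodule F V, finrank F D = m ∧ D ≤ perp Q D ∧ ∀ y ∈ perp Q D, Q y ≠ Q v := by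
  have hQ := h.good.nondeg
  have hd := h.dim
  have hm := h.hm
  obtain ⟨R, l, hl, hl2, hRK, hR1, hRl, hRc, hRM⟩ := h.exists_R hK
  have hlF := h.kill_prime hl hl2 hRK hR1 hRl hRc hRM
  obtain ⟨a, ha, ha1⟩ : ∃ z ∈ R, z ≠ 1 := by
    by_contra hcon
    push Not at hcon
    exact hR1 ((Subgroup.eq_bot_iff_forall _).2 hcon)
  have hCtop : fixS R ≠ ⊤ := by
    intro h0
    apply ha1
    ext x
    have h1 : x ∈ fixS R := by rw [h0]; trivial
    exact h1 a ha
  obtain ⟨D, hDinv, hDC, hts, hDm, hCH⟩ := h.exists_D (inv_fixS hRM) (h.fixS_ne_bot hl hRl hlF) hCtop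
  have hH := h.trivial_H (hl.odd_of_ne_two hl2) hRK hRl hRc hRM hDinv hDC hts hDm
  have hD0 : D ≠ ⊥ := by
    rintro rfl
    rw [finrank_bot] at hDm
    omega
  have hdp := finrank_perp hQ D
  have hfix : fix a = perp Q D := by
    apply le_antisymm
    · intro x hx
      rw [mem_fix] at hx
      by_contra hxD
      obtain ⟨w, hw, hwx⟩ : ∃ w ∈ D, polar Q w x ≠ 0 := by
        by_contra hcon
        push Not at hcon
        exact hxD (mem_perp.2 hcon)
      apply ha1
      refine h.free a (hRK ha) (x + ((polar Q w x)⁻¹ * (Q v - Q x)) • w) ?_ ?_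
      · rw [Q_add, QuadraticMap.map_smul, h.sing_of_ts hts hw, polar_smul_right, polar_comm Q x w, smul_eq_mul, smul_eq_mul]
        field_simp
        ring
      · rw [map_add, map_smul, hx, hDC hw a ha]
    · intro x hx
      rw [mem_fix]
      exact hH hx a ha
  have h1 := h.odd_fix (hRK ha)
  rw [hfix] at h1
  refine ⟨?_, D, hDm, hts, ?_⟩
  · rw [Nat.odd_iff] at h1
    rw [Nat.even_iff]
    omega
  · intro y hy hyv
    obtain ⟨s, hs, hs0⟩ := h.nocom D hD0 hDinv.img_eq y hyv
    exact hs0 (mem_perp.1 hy s hs)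

end Cfg

end Cfsg.Agent.H898.Rg
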